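import Cfsg.Agent.Lib.Walt.H9K

/-! A 2-central involution whose weak closure in its centralizer is `Z₂ × A₅`: the local structure. -/

set_option autoImplicit false
set_option linter.unusedSectionVars false

namespace CA.H9L

open Subgroup Cfsg CA.BG CA.GW CA.J1 CA.J1K CA.H9J CA.H9K
open CA.Gold (conj_sq conj_ne_one CK le_CK_iff norm_CK)
open scoped commutatorElement

theorem mA : ∀ w : M, w * mk 3 * w⁻¹ = mk 8 → w * mk 8 * w⁻¹ = mk 11 → w ^ 3 = 1 → ∀ y : M, y * y = 1 →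
    y * w * (y * w) = 1 → (y * mk 3) ^ 3 = 1 →
    ∃ e, e * mk 3 = mk 3 * e ∧ e * mk 1 * e⁻¹ = w ∧ e * mk 12 * e⁻¹ = y := by decide +kernel
theorem mG : ∀ m : M, ∃ a b c e b' c' : Fin 2, ∃ d : Fin 3,
    m = z ^ a.1 * mk 3 ^ b.1 * mk 8 ^ c.1 * mk 1 ^ d.1 * (mk 12 * mk 3 ^ b'.1 * mk 8 ^ c'.1) ^ e.1 := by decide +kernel
theorem mE : ∀ e : M, e * mk 3 = mk 3 * e → e * e = 1 ∧ (e * mk 1 = mk 1 * e → e = 1 ∨ e = z) ∧
    (∃ x, mk 1 * x * (mk 1)⁻¹ * x⁻¹ = e ∨ mk 1 * x * (mk 1)⁻¹ * x⁻¹ = z * e) ∧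
    mk 1 * e * (mk 1)⁻¹ * mk 3 = mk 3 * (mk 1 * e * (mk 1)⁻¹) ∧
    (ep e = 0 → e ≠ 1 → ∃ d : Fin 3, mk 1 ^ d.1 * e * (mk 1 ^ d.1)⁻¹ = mk 3) := by decide +kernel
theorem mR : mk 1 * mk 3 * (mk 1)⁻¹ = mk 8 ∧ mk 1 * mk 8 * (mk 1)⁻¹ = mk 11 ∧ mk 1 ^ 3 = 1 ∧ mk 12 * mk 12 = 1 ∧
    mk 12 * mk 1 * (mk 12 * mk 1) = 1 ∧ (mk 12 * mk 3) ^ 3 = 1 ∧ mk 8 * mk 3 = mk 3 * mk 8 ∧
    mk 11 * mk 3 = mk 3 * mk 11 ∧ mk 3 ≠ 1 ∧ mk 3 ≠ z ∧ mk 1 * mk 8 * (mk 1)⁻¹ * (mk 8)⁻¹ = mk 3 ∧ ep z ≠ 0 ∧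
    z * (z * mk 3) = mk 3 := by
  decide +kernel
theorem mD : ∀ x y : M, ep (x * y * x⁻¹ * y⁻¹) = 0 := by decide +kernel
theorem mB : ∀ x ∈ [mk 3, z * mk 3], x * mk 3 = mk 3 * x ∧
    (∀ m : M, m * m = 1 → m = 1 ∨ m = z ∨ (∃ n, n * x * n⁻¹ = m) ∨ ∃ n, n * (z * x) * n⁻¹ = m) ∧
    (∀ e : M, e * mk 3 = mk 3 * e → ∃ a b c : Fin 2, e = z ^ a.1 * x ^ b.1 * (mk 1 * x * (mk 1)⁻¹) ^ c.1) ∧
    (Finset.univ.filter fun m : M => m * mk 3 = mk 3 * m ∧ (m = z ∨ ∃ n, n * x * n⁻¹ = m)).card = 4 := by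
  decide +kernel

variable {G : Type*} [Group G] [Finite G] {t a b e g n x y : G} {E S T : Subgroup G}

/-- conjugates of `t` -/
def In (t x : G) : Prop := ∃ g, g * t * g⁻¹ = x

theorem In.self (t : G) : In t t := ⟨1, by group⟩
theorem In.conj (h : In t x) (g : G) : In t (g * x * g⁻¹) := let ⟨k, hk⟩ := h; ⟨g * k, by rw [← hk]; group⟩
theorem In.of_conj (h : In t (g * x * g⁻¹)) : In t x := by simpa [mul_assoc] using h.conj g⁻¹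

/-- the weak closure of `t` in the centralizer of `a` -/
def W (t a : G) : Subgroup G := closure {x | ∃ g, x = g * t * g⁻¹ ∧ x * a = a * x}

theorem W_le : W t a ≤ 𝓒₁(a) := (closure_le _).2 fun _ ⟨_, _, h⟩ => mem_cent1.2 h
theorem mem_W (h : In t x) (h1 : x * a = a * x) : x ∈ W t a :=
  let ⟨g, hg⟩ := h; subset_closure ⟨g, hg.symm, h1⟩
theorem cj_W_le (g t a : G) : cj g (W t a) ≤ W t (g * a * g⁻¹) := by
  rw [W, cj_closure, closure_le]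
  rintro - ⟨x, ⟨k, h1, h2⟩, rfl⟩
  exact mem_W (In.conj ⟨k, h1.symm⟩ g) (by simp only [conj_mul, h2])
theorem cj_W (g t a : G) : cj g (W t a) = W t (g * a * g⁻¹) := (cj_W_le g t a).antisymm fun x hx =>
  mem_cj.2 (by simpa [mul_assoc] using cj_W_le g⁻¹ t _ (conj_mem_cj.2 hx))
theorem norm_W : 𝓒₁(a) ≤ 𝓝(W t a) := fun g hg => mem_norm_iff_cj.2 (by
  rw [cj_W, mem_cent1.1 hg, mul_inv_cancel_right])

/-- a chart of the weak closure -/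
structure WC (t a : G) (E : Subgroup G) where
  make ::
  ψ : M →* G
  inj : Function.Injective ψ
  rng : ψ.range = W t a
  hz : ψ z = a
  hE : ∀ x, x ∈ E ↔ ∃ m, m * mk 3 = mk 3 * m ∧ ψ m = x

/-- the complement of `a` in `E` -/
def VV (t a : G) (E : Subgroup G) : Subgroup G := E ⊓ ⁅W t a, W t a⁆

theorem norm_VV (h1 : n ∈ 𝓝(E)) (h2 : n ∈ 𝓒₁(a)) : n ∈ 𝓝(VV t a E) :=
  zp_le.1 (norm_inf (zp_le.2 h1) (norm_comm (zp_le.2 (norm_W h2)) (zp_le.2 (norm_W h2))))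

namespace WC
variable (c : WC t a E)

/-- transport along a conjugation -/
def conj (g : G) : WC t (g * a * g⁻¹) (cj g E) where
  ψ := (MulAut.conj g).toMonoidHom.comp c.ψ
  inj := (MulAut.conj g).injective.comp c.inj
  rng := by rw [MonoidHom.range_comp, c.rng, ← cj_W]; rfl
  hz := by simp [c.hz]
  hE := fun x => by
    rw [mem_cj']
    exact ⟨fun ⟨y, hy, h⟩ => let ⟨m, h1, h2⟩ := (c.hE y).1 hy; ⟨m, h1, by rw [← h, ← h2]; rfl⟩,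
      fun ⟨m, h1, h2⟩ => ⟨_, (c.hE _).2 ⟨m, h1, rfl⟩, h2⟩⟩

theorem mem (m : M) : c.ψ m ∈ W t a := c.rng ▸ ⟨m, rfl⟩
theorem memE {m : M} : c.ψ m ∈ E ↔ m * mk 3 = mk 3 * m :=
  (c.hE _).trans ⟨fun ⟨_, h1, h2⟩ => c.inj h2 ▸ h1, fun h => ⟨m, h, rfl⟩⟩
theorem eq_one {m : M} : c.ψ m = 1 ↔ m = 1 := (injective_iff_map_eq_one' c.ψ).1 c.inj m
theorem v1 : c.ψ (mk 3) ≠ 1 := fun h => mR.2.2.2.2.2.2.2.2.1 (c.eq_one.1 h)
theorem va : c.ψ (mk 3) ≠ a := fun h => mR.2.2.2.2.2.2.2.2.2.1 (c.inj (h.trans c.hz.symm))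
theorem vE : c.ψ (mk 3) ∈ E := c.memE.2 rfl
include c
theorem sur (hx : x ∈ W t a) : ∃ m, c.ψ m = x := c.rng.ge hx
theorem le : E ≤ W t a := fun x hx => let ⟨m, _, h⟩ := (c.hE x).1 hx; h ▸ c.mem m
theorem aE : a ∈ E := c.hz ▸ c.memE.2 (kz.2.2 _).1.symm
theorem sq : ∀ x ∈ E, x * x = 1 := fun x hx => by
  obtain ⟨m, h, rfl⟩ := (c.hE x).1 hx
  rw [← map_mul, (mE m h).1, map_one]
theorem cardW : ♯(W t a) = 120 := by
  rw [← c.rng, ← card_M]; exact (Nat.card_congr (MonoidHom.ofInjective c.inj).toEquiv).symm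
theorem cardE : ♯E = 8 := by
  have h : (E : Set G) = c.ψ '' (Finset.univ.filter fun m : M => m * mk 3 = mk 3 * m : Finset M) := by
    ext x; simpa using c.hE x
  rw [← SetLike.coe_sort_coe, h, Nat.card_image_of_injective c.inj]
  simpa using (k2 (mk 3) (mE _ rfl).1 mR.2.2.2.2.2.2.2.2.1 mR.2.2.2.2.2.2.2.2.2.1).1
theorem syl (h1 : T ≤ W t a) (h8 : ♯T = 8) : Syl 2 T (W t a) :=
  Syl.mk'' Nat.prime_two h1 (isPi_of_card_eq_pow Nat.prime_two (k := 3) h8) (by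
    have := card_mul_relIndex h1
    rw [h8, c.cardW] at this
    omega)
theorem cen (h1 : x ∈ E) (h2 : x * c.ψ (mk 1) = c.ψ (mk 1) * x) : x = 1 ∨ x = a := by
  obtain ⟨m, h, rfl⟩ := (c.hE x).1 h1
  rw [← map_mul, ← map_mul, c.inj.eq_iff] at h2
  exact ((mE m h).2.1 h2).imp c.eq_one.2 fun e => by rw [e, c.hz]
theorem wN : c.ψ (mk 1) ∈ 𝓝(E) := mem_norm_of_cj_le fun x hx => by
  obtain ⟨y, hy, rfl⟩ := mem_cj'.1 hx
  obtain ⟨m, h, rfl⟩ := (c.hE y).1 hy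
  rw [← map_mul, ← map_inv, ← map_mul, c.memE]
  exact (mE m h).2.2.2.1
theorem ep_der {m : M} (h : c.ψ m ∈ ⁅W t a, W t a⁆) : ep m = 0 := by
  have : ⁅W t a, W t a⁆ ≤ L5.map c.ψ := commutator_le.2 fun x hx y hy => by
    obtain ⟨x, rfl⟩ := c.sur hx
    obtain ⟨y, rfl⟩ := c.sur hy
    exact ⟨_, mD x y, by simp [commutatorElement_def]⟩
  exact (mem_map_iff_mem c.inj).1 (this h)
theorem aV : a ∉ VV t a E := fun h => mR.2.2.2.2.2.2.2.2.2.2.2.1 (c.ep_der (c.hz.symm ▸ h.2))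
theorem der (x y : M) : c.ψ (x * y * x⁻¹ * y⁻¹) ∈ ⁅W t a, W t a⁆ := by
  simpa [commutatorElement_def] using commutator_mem_commutator (c.mem x) (c.mem y)
theorem vV : c.ψ (mk 3) ∈ VV t a E := ⟨c.vE, mR.2.2.2.2.2.2.2.2.2.2.1 ▸ c.der _ _⟩
theorem orV (h : e ∈ E) : e ∈ VV t a E ∨ a * e ∈ VV t a E := by
  obtain ⟨m, h1, rfl⟩ := (c.hE e).1 h
  obtain ⟨x, hx | hx⟩ := (mE m h1).2.2.1
  · exact Or.inl ⟨h, hx ▸ c.der _ _⟩
  · exact Or.inr ⟨mul_mem c.aE h, by have := c.der (mk 1) x; rwa [hx, map_mul, c.hz] at this⟩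
theorem cardV : ♯(VV t a E) = 4 := by
  have h := card_mul_relIndex (H := VV t a E) (K := E) inf_le_left
  rw [relIndex_eq_two_iff_exists_notMem_and'.2 ⟨a, c.aE, c.aV, fun e he => (c.orV he).symm⟩, c.cardE] at h
  omega

theorem inner (hb : b ∈ 𝓒(E)) : ∃ e ∈ E, e⁻¹ * b ∈ 𝓒(W t a) := by
  have hn := norm_W (t := t) (cent_le_cent1 c.aE hb)
  obtain ⟨w, hw⟩ := c.sur (conj_mem_of_mem_norm hn (c.mem (mk 1)))
  obtain ⟨y, hy⟩ := c.sur (conj_mem_of_mem_norm hn (c.mem (mk 12)))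
  have fx : ∀ m, m * mk 3 = mk 3 * m → b * c.ψ m * b⁻¹ = c.ψ m := fun m h => by
    rw [← mem_cent.1 hb _ (c.memE.2 h), mul_inv_cancel_right]
  obtain ⟨r1, r2, r3, r4, r5, r6, r7, r8, -⟩ := mR
  obtain ⟨e, h1, h2, h3⟩ := mA w (c.inj (by
      rw [← fx _ r7, ← r1]; simp only [map_mul, map_inv, hw]; rw [← fx _ rfl]; conv_rhs => rw [fx _ rfl]
      group)) (c.inj (by
      rw [← fx _ r8, ← r2]; simp only [map_mul, map_inv, hw]; rw [← fx _ r7]; conv_rhs => rw [fx _ r7]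
      group)) (c.inj (by rw [map_pow, hw, conj_pow, ← map_pow, r3]; simp)) y
    (c.inj (by rw [map_mul, hy, conj_mul, ← map_mul, r4]; simp))
    (c.inj (by simp only [map_mul, hy, hw, conj_mul]; simp only [← map_mul, r5]; simp))
    (c.inj (by rw [map_pow, map_mul, hy, ← fx _ rfl, conj_mul, conj_pow, ← map_mul, ← map_pow, r6]; simp))
  have he := c.memE.2 h1
  have k : ∀ m, b * c.ψ m * b⁻¹ = c.ψ (e * m * e⁻¹) → m ∈ 𝓒₁((c.ψ e)⁻¹ * b).comap c.ψ := fun m h =>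
    mem_cent1.2 (by
      calc c.ψ m * ((c.ψ e)⁻¹ * b) = (c.ψ e)⁻¹ * (c.ψ e * c.ψ m * (c.ψ e)⁻¹) * b := by group
        _ = _ := by rw [map_mul, map_mul, map_inv] at h; rw [← h]; group)
  have kE : ∀ m, m * mk 3 = mk 3 * m → m ∈ 𝓒₁((c.ψ e)⁻¹ * b).comap c.ψ := fun m h => k m (by
    rw [fx m h, map_mul, map_mul, map_inv, comm_of_sq c.sq he (c.memE.2 h), mul_inv_cancel_right])
  refine ⟨_, he, mem_cent.2 fun x hx => ?_⟩
  obtain ⟨m, rfl⟩ := c.sur hx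
  obtain ⟨i1, i2, i3, i4, i5, i6, i7, rfl⟩ := mG m
  exact mem_cent1.1 (mul_mem (mul_mem (mul_mem (mul_mem (pow_mem (kE _ (kz.2.2 _).1.symm) _) (pow_mem (kE _ rfl) _))
    (pow_mem (kE _ r7) _)) (pow_mem (k _ (h2 ▸ hw.symm)) _)) (pow_mem (mul_mem (mul_mem (k _ (h3 ▸ hy.symm))
    (pow_mem (kE _ rfl) _)) (pow_mem (kE _ r7) _)) _))

/-- an element fixing `a` and an involution `x` of the complement centralizes `E` -/
theorem fix (c' : WC t x E) (hx : x ∈ VV t a E) (h1 : n ∈ 𝓝(E)) (h2 : n ∈ 𝓒₁(a)) (h3 : n ∈ 𝓒₁(x)) :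
    n ∈ 𝓒(E) := by
  have k1 : ∀ u ∈ VV t a E, u ∈ VV t x E → u ∈ 𝓒₁(n) := fun u u1 u2 => by_contra fun h => by
    have u3 := conj_mem_of_mem_norm (norm_VV h1 h2) u1
    have u4 := conj_mem_of_mem_norm (norm_VV h1 h3) u2
    have u5 : u ≠ 1 := fun e => h (e ▸ one_mem _)
    have f : Four u (n * u * n⁻¹) := ⟨ord_two (c.sq u u1.1) u5, by rw [ord_conj, ord_two (c.sq u u1.1) u5],
      comm_of_sq c.sq u1.1 u3.1, fun e => h (mem_cent1_symm.1 (mem_cent1_of_conj e.symm))⟩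
    exact c'.aV (V4_le u2 u4 ((eq_of_le_of_card_eq (V4_le u1 u3) (f.card.trans c.cardV.symm)).ge hx))
  have k2 : ∀ u ∈ VV t a E, u ∈ 𝓒₁(n) := fun u hu => (c'.orV hu.1).elim (k1 u hu) fun h =>
    (mul_mem_cancel_left (mem_cent1_symm.1 h3)).1 (k1 _ (mul_mem hx hu) h)
  exact mem_cent.2 fun e he => mem_cent1.1 ((c.orV he).elim (k2 e) fun h =>
    (mul_mem_cancel_left (mem_cent1_symm.1 h2)).1 (k2 _ h))

end WC

/-- the hypotheses -/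
structure Hy (t : G) (S E : Subgroup G) : Prop where
  make ::
  ht : orderOf t = 2
  hS : Syl 2 S ⊤
  hc : S ≤ 𝓒₁(t)
  hE : E ≤ S
  ch : Nonempty (WC t t E)

theorem exists_hy (ht : orderOf t = 2) (hS : Syl 2 S ⊤) (hc : S ≤ 𝓒₁(t)) (e : W t t ≃* K) : ∃ S E, Hy t S E := by
  let ψ : M →* G := (W t t).subtype.comp (equivK.trans e.symm).toMonoidHom
  have hi : Function.Injective ψ := (W t t).subtype_injective.comp (equivK.trans e.symm).injective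
  have hr : ψ.range = W t t := by
    rw [MonoidHom.range_comp, MonoidHom.range_eq_top.2 (equivK.trans e.symm).surjective, ← MonoidHom.range_eq_map,
      range_subtype]
  obtain ⟨m, hm⟩ := hr.ge (mem_W (In.self t) rfl)
  have h1 : ∀ n, m * n = n * m := fun n => hi (by rw [map_mul, map_mul, hm, mem_cent1.1 (W_le (hr.le ⟨n, rfl⟩))])
  rcases k7 m (h1 _) (h1 _) (h1 _) with rfl | rfl
  · exact absurd (hm.symm.trans (map_one ψ)) (ne_one_of_ord ht)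
  let c : WC t t (𝓒₁(mk 3).map ψ) := ⟨ψ, hi, hr, hm, fun x => by simp only [mem_map, mem_cent1]⟩
  obtain ⟨S', h2, h3⟩ := syl_superset Nat.prime_two (CA.Gold.pi2_of_sq c.sq) (c.le.trans W_le)
  exact ⟨S', _, ht, hS.of_card_eq le_top (h2.card_eq (hS.of_le hc le_top)), h2.le, h3, ⟨c⟩⟩

/-- the complement of `E` in its centralizer -/
def DD (E : Subgroup G) : Subgroup G := 𝓒(E) ⊓ 𝓒(CK 𝓒(E) E)

namespace Hy
variable (H : Hy t S E)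
include H

theorem inf : S ⊓ W t t = E :=
  let ⟨c⟩ := H.ch
  (c.syl c.le c.cardE).eq_of_le (H.hS.pi.of_le inf_le_left) (le_inf H.hE c.le) inf_le_right
theorem memE (hx : In t x) (h : x ∈ S) : x ∈ E := H.inf.le ⟨h, mem_W hx (mem_cent1.1 (H.hc h))⟩
theorem SN : S ≤ 𝓝(E) := H.inf ▸ norm_inf (le_norm_self S) (H.hc.trans norm_W)
theorem sq : ∀ x ∈ E, x * x = 1 := let ⟨c⟩ := H.ch; c.sq
theorem tE : t ∈ E := let ⟨c⟩ := H.ch; c.aE
theorem t1 : t ≠ 1 := ne_one_of_ord H.ht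
theorem in_sq (hx : In t x) : x * x = 1 := let ⟨g, h⟩ := hx; h ▸ conj_sq (sq_of_ord H.ht) g
theorem in_ne (hx : In t x) : x ≠ 1 := let ⟨g, h⟩ := hx; h ▸ conj_ne_one H.t1 g

theorem tr0 (hx : In t x) (h : E ≤ W t x) : ∃ n ∈ 𝓝(E), n * t * n⁻¹ = x := by
  obtain ⟨c⟩ := H.ch
  obtain ⟨g, rfl⟩ := hx
  have c' := c.conj g
  obtain ⟨k, hk, e⟩ := (c'.syl c'.le c'.cardE).syl_conj Nat.prime_two (c'.syl h c.cardE)
  exact ⟨k * g, mem_norm_iff_cj.2 (by rw [cj_mul, e]), by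
    rw [show k * g * t * (k * g)⁻¹ = k * (g * t * g⁻¹) * k⁻¹ by group, mem_cent1.1 (W_le hk), mul_inv_cancel_right]⟩

theorem inW0 (hx : x ∈ W t t) (h2 : x * x = 1) (h1 : x ≠ 1) : In t x := by
  obtain ⟨c⟩ := H.ch
  have cj : ∀ n m : M, In t (c.ψ (n * m * n⁻¹)) ↔ In t (c.ψ m) := fun n m => by
    rw [map_mul, map_mul, map_inv]; exact ⟨In.of_conj, fun h => h.conj _⟩
  have sq : ∀ m, c.ψ m * c.ψ m = 1 → m * m = 1 := fun m h => c.eq_one.1 (by rwa [map_mul])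
  have k1 : ∀ x0 ∈ [mk 3, z * mk 3], In t (c.ψ x0) → In t (c.ψ (z * x0)) := fun x0 h0 k => by_contra fun k' => by
    obtain ⟨b1, b2, b3, b4⟩ := mB x0 h0
    have h3 := CA.Wa.odd_idx (H.hS.of_le H.SN le_top) H.hc
    have b5 := (mE x0 b1).2.2.2.1
    rw [← card_cls, show {y | ∃ h ∈ 𝓝(E), h * t * h⁻¹ = y} = c.ψ '' (Finset.univ.filter fun m : M =>
      m * mk 3 = mk 3 * m ∧ (m = z ∨ ∃ n, n * x0 * n⁻¹ = m) : Finset M) from ?_,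
      Set.ncard_image_of_injective _ c.inj, Set.ncard_coe_finset, b4] at h3
    · exact absurd h3 (by decide)
    ext y
    simp only [Set.mem_image, Finset.coe_filter, Finset.mem_univ, true_and, Set.mem_setOf_eq]
    constructor
    · rintro ⟨n, hn, e⟩
      obtain ⟨m, m1, rfl⟩ := (c.hE y).1 (e ▸ conj_mem_of_mem_norm hn c.aE)
      refine ⟨m, ⟨m1, ?_⟩, rfl⟩
      rcases b2 m (mE m m1).1 with rfl | h | h | ⟨n', rfl⟩
      · exact absurd (map_one _) (H.in_ne ⟨n, e⟩)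
      · exact Or.inl h
      · exact Or.inr h
      · exact absurd ((cj _ _).1 ⟨n, e⟩) k'
    · rintro ⟨m, ⟨m1, m2⟩, rfl⟩
      refine H.tr0 ?_ fun e he => ?_
      · rcases m2 with rfl | ⟨n, rfl⟩
        exacts [c.hz.symm ▸ In.self t, (cj _ _).2 k]
      obtain ⟨e, e1, rfl⟩ := (c.hE e).1 he
      obtain ⟨i, j, l, rfl⟩ := b3 e e1
      have q : ∀ u, u * mk 3 = mk 3 * u → In t (c.ψ u) → c.ψ u ∈ W t (c.ψ m) := fun u u1 u2 =>
        mem_W u2 (comm_of_sq c.sq (c.memE.2 u1) (c.memE.2 m1))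
      rw [map_mul, map_mul, map_pow, map_pow, map_pow]
      exact mul_mem (mul_mem (pow_mem (q _ (kz.2.2 _).1.symm (c.hz.symm ▸ In.self t)) _) (pow_mem (q _ b1 k) _))
        (pow_mem (q _ b5 ((cj _ _).2 k)) _)
  have k2 : In t (c.ψ (mk 3)) ∨ In t (c.ψ (z * mk 3)) := by_contra fun h => by
    have : W t t ≤ zpowers t := (closure_le _).2 fun y ⟨g, h1, h2⟩ => by
      obtain ⟨m, rfl⟩ := c.sur (mem_W ⟨g, h1.symm⟩ h2)
      rcases (mB _ List.mem_cons_self).2.1 m (sq m (H.in_sq ⟨g, h1.symm⟩)) with rfl | rfl | ⟨n, rfl⟩ | ⟨n, rfl⟩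
      · exact map_one c.ψ ▸ one_mem _
      · exact c.hz.symm ▸ mem_zpowers t
      · exact absurd (Or.inl ((cj _ _).1 ⟨g, h1.symm⟩)) h
      · exact absurd (Or.inr ((cj _ _).1 ⟨g, h1.symm⟩)) h
    exact ((mem_zp (sq_of_ord H.ht)).1 (this (c.mem _))).elim c.v1 c.va
  have k3 : In t (c.ψ (mk 3)) ∧ In t (c.ψ (z * mk 3)) := k2.elim (fun h => ⟨h, k1 _ List.mem_cons_self h⟩)
    fun h => ⟨mR.2.2.2.2.2.2.2.2.2.2.2.2 ▸ k1 _ (by simp) h, h⟩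
  obtain ⟨m, rfl⟩ := c.sur hx
  rcases (mB _ List.mem_cons_self).2.1 m (sq m h2) with rfl | rfl | ⟨n, rfl⟩ | ⟨n, rfl⟩
  exacts [absurd (map_one _) h1, c.hz.symm ▸ In.self t, (cj _ _).2 k3.1, (cj _ _).2 k3.2]

theorem inW (ha : In t a) (hx : x ∈ W t a) (h2 : x * x = 1) (h1 : x ≠ 1) : In t x := by
  obtain ⟨g, rfl⟩ := ha
  obtain ⟨y, hy, rfl⟩ := mem_cj'.1 ((cj_W g t t).ge hx)
  exact (H.inW0 hy (by simpa [mul_assoc] using conj_sq h2 g⁻¹) fun e => h1 (by simp [e])).conj g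
theorem inE (hx : x ∈ E) (h1 : x ≠ 1) : In t x := let ⟨c⟩ := H.ch; H.inW0 (c.le hx) (c.sq x hx) h1
theorem tr (hx : x ∈ E) (h1 : x ≠ 1) : ∃ n ∈ 𝓝(E), n * t * n⁻¹ = x := H.tr0 (H.inE hx h1) fun e he =>
  (eq_or_ne e 1).elim (fun h => h ▸ one_mem _) fun h => mem_W (H.inE he h) (comm_of_sq H.sq he hx)
theorem wc (hx : x ∈ E) (h1 : x ≠ 1) : Nonempty (WC t x E) := by
  obtain ⟨c⟩ := H.ch
  obtain ⟨n, hn, rfl⟩ := H.tr hx h1
  exact ⟨mem_norm_iff_cj.1 hn ▸ c.conj n⟩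

theorem SC : S ≤ 𝓒(E) := fun s hs => by
  obtain ⟨c⟩ := H.ch
  obtain ⟨x, hx, x1⟩ := exists_ne_one (H.hS.pi.meet_cent (N := VV t t E) (CA.Gold.pi2_of_sq fun y hy => c.sq y hy.1)
    (fun s hs => norm_VV (H.SN hs) (H.hc hs)) (ne_bot_of_mem c.vV c.v1))
  obtain ⟨c'⟩ := H.wc hx.1.1 x1
  exact c.fix c' hx.1 (H.SN hs) (H.hc hs) (le_cent1_iff.2 hx.2 hs)

theorem two (hx : In t x) (hT : IsPi {2} T) (h : x ∈ T) : T ≤ 𝓒₁(x) := fun y hy => by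
  obtain ⟨g, -, hg⟩ := H.hS.syl_conj_le Nat.prime_two hT le_top
  have := mem_cent.1 (H.SC (hg (conj_mem_cj.2 hy))) _ (H.memE (hx.conj g) (hg (conj_mem_cj.2 h)))
  rw [conj_mul, conj_mul, mul_left_inj, mul_right_inj] at this
  exact mem_cent1.2 this.symm

theorem eq_one (hx : x ∈ E) (h : ∀ a ∈ E, a ≠ 1 → x ∈ 𝓒(W t a)) : x = 1 := by
  obtain ⟨c⟩ := H.ch
  obtain ⟨c'⟩ := H.wc c.vE c.v1
  rcases c.cen hx (mem_cent.1 (h t c.aE H.t1) _ (c.mem _)).symm with e | e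
  · exact e
  exact (c'.cen hx (mem_cent.1 (h _ c.vE c.v1) _ (c'.mem _)).symm).resolve_right fun e' => c.va (e'.symm.trans e)

theorem der_one (hx : x ∈ E) (h : x ∈ ⁅𝓒(E), 𝓒(E)⁆) : x = 1 := H.eq_one hx fun a ha a1 => by
  obtain ⟨c⟩ := H.wc ha a1
  refine commutator_le.2 (fun b hb b' hb' => ?_) h
  obtain ⟨e, he, hd⟩ := c.inner hb
  have h1 := mul_mem hd (conj_mem_of_mem_norm (norm_cent le_rfl (norm_W (cent_le_cent1 ha hb'))) (inv_mem hd))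
  have h2 := mem_cent.1 (mul_mem (mul_mem hb hb') (inv_mem hb)) _ he
  convert h1 using 1
  calc ⁅b, b'⁆ = e⁻¹ * (e * (b * b' * b⁻¹)) * b'⁻¹ := by rw [commutatorElement_def]; group
    _ = _ := by rw [h2]; group

theorem WK (ha : a ∈ E) (a1 : a ≠ 1) : W t a ⊓ 𝓝(E) ≤ CK 𝓒(E) E := by
  obtain ⟨c⟩ := H.wc ha a1
  refine (le_CK_iff (cent_le_norm E)).2 ⟨inf_le_right, commutator_le.2 fun b hb k hk => ?_⟩
  obtain ⟨e, he, hd⟩ := c.inner hb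
  convert mul_mem he (conj_mem_of_mem_norm hk.2 (inv_mem he)) using 1
  calc ⁅b, k⁆ = e * (e⁻¹ * b * k) * b⁻¹ * k⁻¹ := by rw [commutatorElement_def]; group
    _ = _ := by rw [← mem_cent.1 hd _ hk.1]; group

theorem BD : 𝓒(E) ≤ E ⊔ DD E := fun b hb => by
  obtain ⟨k1, k2⟩ := (le_CK_iff (K := CK 𝓒(E) E) (cent_le_norm E)).1 le_rfl
  have k3 : CK 𝓒(E) E ⊓ 𝓒(E) ≤ 𝓒(𝓒(E)) := fun k hk => mem_cent.2 fun y hy => commutatorElement_eq_one_iff_mul_comm.1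
    (H.der_one (k2 (commutator_mem_commutator hy hk.1)) (commutator_mem_commutator hy hk.2))
  have k4 : E ≤ CK 𝓒(E) E := (le_CK_iff (cent_le_norm E)).2 ⟨le_norm_self E, (comm_eq_bot_iff.2 le_rfl).trans_le bot_le⟩
  obtain ⟨T, hT, h1⟩ := syl_superset Nat.prime_two (CA.Gold.pi2_of_sq H.sq) k4
  have k5 : T ≤ CK 𝓒(E) E ⊓ 𝓒(E) := le_inf hT.le (cent_symm fun e he => (eq_or_ne e 1).elim (fun h => h ▸ one_mem _)
    fun h => le_cent1_iff.1 (H.two (H.inE he h) hT.pi (h1 he)))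
  have k6 := CA.Wa.solv_of_odd_idx hT k5 (norm_inf (le_norm_self _) (norm_cent k1))
    (solv_of_comm (comm_iff_le_cent.2 (k3.trans (cent_anti inf_le_right))))
  obtain ⟨A, hA⟩ := hall_exists {2}ᶜ k6
  have k7 := hA.of_le (le_sup_right : A ≤ E ⊔ A) (sup_le k4 hA.le)
  obtain ⟨g, hg, e⟩ := k7.conj (solv_of_le k6 (sup_le k4 hA.le)) (k7.of_card_eq (Q := cj b A) (fun y hy => by
    obtain ⟨y, hy', rfl⟩ := mem_cj'.1 hy
    simpa [commutatorElement_def] using mul_mem_sup (k2 (commutator_mem_commutator hb (hA.le hy'))) hy') (card_cj _ _))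
  obtain ⟨e', he, y, hy, rfl⟩ := (mem_sup_norm' (hA.le.trans k1)).1 hg
  rw [cj_mul, mem_norm_iff_cj.1 (le_norm_self A hy)] at e
  have k8 : e'⁻¹ * b ∈ 𝓝(A) := mem_norm_iff_cj.2 (by rw [cj_mul, ← e, cj_inv_cj])
  have k9 := mul_mem (inv_mem (CA.Gold.cent_of_sq H.sq he)) hb
  have := mul_mem_sup (T := DD E) he (mem_inf.2 ⟨k9, le_cent1_iff.1 (hT.le_of_compl hA ((k5.trans k3).trans (cent_le_cent1 k9))
    fun y hy => mem_cent1_symm.1 (mem_cent1.2 (commutatorElement_eq_one_iff_mul_comm.1 (Od.eq_one hA.pi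
      (mul_mem (conj_mem_of_mem_norm k8 hy) (inv_mem hy))
      (H.sq _ (k2 (commutator_mem_commutator k9 (hA.le hy))))))))⟩)
  rwa [mul_inv_cancel_left] at this

theorem DW (ha : a ∈ E) (a1 : a ≠ 1) : DD E ≤ 𝓒(W t a) := fun d hd => by
  obtain ⟨c⟩ := H.wc ha a1
  obtain ⟨e, he, h⟩ := c.inner hd.1
  have h1 := mem_cent.1 hd.2 _ (H.WK ha a1 ⟨c.mem _, c.wN⟩)
  have h2 := mem_cent.1 h _ (c.mem (mk 1))
  rw [mul_assoc, ← h1, ← mul_assoc, ← mul_assoc, mul_left_inj] at h2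
  refine (mul_mem_cancel_left ?_).1 h
  rcases c.cen (inv_mem he) h2.symm with h3 | h3 <;> rw [h3]
  exacts [one_mem _, le_cent1_iff.1 W_le]
theorem DE (h1 : x ∈ DD E) (h2 : x ∈ E) : x = 1 := H.eq_one h2 fun _ ha a1 => H.DW ha a1 h1
omit H in
theorem ND : 𝓝(E) ≤ 𝓝(DD E) := norm_inf (norm_cent le_rfl) (norm_cent (norm_CK (norm_cent le_rfl) le_rfl))

theorem Ca (ha : a ∈ E) (a1 : a ≠ 1) : 𝓒₁(a) ≤ W t a ⊔ DD E := fun g hg => by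
  obtain ⟨c⟩ := H.wc ha a1
  obtain ⟨c'⟩ := H.wc c.vE c.v1
  obtain ⟨w, hw, n, hn, rfl⟩ := (c.syl c.le c.cardE).syl_frattini Nat.prime_two (norm_W hg)
  have h1 := (mul_mem_cancel_left (W_le hw)).1 hg
  have h2 := conj_mem_of_mem_norm (norm_VV (t := t) hn h1) c.vV
  obtain ⟨m, m1, e⟩ := (c.hE _).1 h2.1
  obtain ⟨d, hd⟩ := (mE m m1).2.2.2.2 (c.ep_der (e ▸ h2.2)) fun h => conj_ne_one c.v1 n (by rw [← e, h, map_one])
  have h3 := pow_mem (c.mem (mk 1)) d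
  have h4 := c.fix c' c.vV (mul_mem (pow_mem c.wN d) hn) (mul_mem (W_le h3) h1) (mem_cent1_of_conj (by
    conv_rhs => rw [← hd, map_mul, map_mul, map_inv, map_pow, e]
    group))
  exact mul_mem (mem_sup_left hw) ((mul_mem_cancel_left (mem_sup_left h3)).1 (sup_le_sup_right c.le _ (H.BD h4)))
theorem CD (ha : a ∈ E) (a1 : a ≠ 1) : 𝓒₁(a) ≤ 𝓝(DD E) :=
  (H.Ca ha a1).trans (sup_le (norm_of_cent (cent_symm (H.DW ha a1))) (le_norm_self _))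

end Hy

end CA.H9L
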