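import Cfsg.Agent.Lib.Walt.H9L
import Cfsg.Agent.S2039

/-! A 2-central involution whose weak closure in its centralizer is `Z₂ × A₅` generates `J₁`. -/

set_option autoImplicit false
set_option linter.unusedSectionVars false

namespace CA.H9L

open Subgroup Cfsg CA.BG CA.OQuo CA.GW CA.J1 CA.J1K CA.H9J CA.H9K
open CA.Gold (conj_sq conj_ne_one)
open scoped commutatorElement

variable {G : Type*} [Group G] [Finite G] {t a b e g n u v x y : G} {E S T X : Subgroup G}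

theorem no77 (J : JT G) (hX : Od X) (h : 77 ∣ ♯X) : False := by
  have hG := J.config.1
  have p7 : Nat.Prime 7 := by norm_num
  have p11 : Nat.Prime 11 := by norm_num
  obtain ⟨P, hP⟩ := hall_exists {7, 11} hX.solv
  have k : ∀ p, p.Prime → p ∈ ({7, 11} : Set ℕ) → p ∣ ♯X → p ∣ ♯P := fun p hp h1 h2 =>
    (hp.dvd_mul.1 (card_mul_relIndex hP.le ▸ h2)).resolve_right (hP.2.2 p hp h1)
  have k7 := k 7 p7 (by simp) ((by decide : 7 ∣ 77).trans h)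
  have k11 := k 11 p11 (by simp) ((by decide : 11 ∣ 77).trans h)
  obtain ⟨p, hp, h1⟩ := exists_core_ne_bot (solv_of_le hX.solv hP.le) (fun e : P = ⊥ => by simp [e] at k7)
  have h2 := (core_pi {p} P).mem_of_ne_bot h1 (hP.pi.of_le (core_le _ _))
  obtain ⟨Y, h3, h4⟩ := (core_pi {p} P).exists_card_eq h1
  obtain ⟨x, hx, ox⟩ := exists_orderOf_eq (H := Y) hp h4.symm.dvd
  have h5 : ¬ p * p ∣ Nat.card G := by rcases h2 with rfl | rfl <;> rw [hG] <;> decide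
  have h6 := (syl_prime hp (by rw [Nat.card_zpowers, ox]) (le_top (a := zpowers x)) (by rwa [card_top'])).eq_of_le
    (core_pi {p} P) (zp_le.2 (h3 hx)) le_top
  obtain ⟨-, e, -, -, h7, h8⟩ := sylow_data hp h5 ox
  have h9 := card_dvd (h6 ▸ le_norm_core {p} P)
  rcases h2 with rfl | rfl
  · rw [h8, J.cent7 ox] at h9
    have := Nat.le_of_dvd (by norm_num) h7
    have := k11.trans h9
    interval_cases e <;> omega
  · rw [h8, J.cent11 ox] at h9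
    have := Nat.le_of_dvd (by norm_num) h7
    have := k7.trans h9
    interval_cases e <;> omega

namespace Hy
variable (H : Hy t S E)
include H

theorem SH : Syl 2 S 𝓝(DD E) := H.hS.of_le (H.SN.trans ND) le_top
theorem EH : E ≤ 𝓝(DD E) := (le_norm_self E).trans ND

theorem inH (hx : In t x) (h : x ∈ 𝓝(DD E)) : ∃ k ∈ 𝓝(DD E), k * t * k⁻¹ = x := by
  obtain ⟨g, hg, h1⟩ := CA.Wa.conj_into H.SH (H.in_sq hx) h
  obtain ⟨n, hn, e⟩ := H.tr (H.memE (hx.conj g) h1) (H.in_ne (hx.conj g))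
  exact ⟨g⁻¹ * n, mul_mem (inv_mem hg) (ND hn), by
    rw [show g⁻¹ * n * t * (g⁻¹ * n)⁻¹ = g⁻¹ * (n * t * n⁻¹) * g by group, e]; group⟩

theorem conjH (hx : In t x) (h : x ∈ 𝓝(DD E)) (h1 : g * x * g⁻¹ ∈ 𝓝(DD E)) : g ∈ 𝓝(DD E) := by
  obtain ⟨k', hk', e⟩ := H.inH (hx.conj g) h1
  obtain ⟨k, hk, rfl⟩ := H.inH hx h
  have := H.CD H.tE H.t1 (mem_cent1.2 (mul_inv_eq_iff_eq_mul.1 (show k'⁻¹ * g * k * t * (k'⁻¹ * g * k)⁻¹ = t by
    rw [show k'⁻¹ * g * k * t * (k'⁻¹ * g * k)⁻¹ = k'⁻¹ * (g * (k * t * k⁻¹) * g⁻¹) * k' by group, ← e]; group)))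
  exact (mul_mem_cancel_left (inv_mem hk')).1 ((mul_mem_cancel_right hk).1 this)

theorem c1H (hx : In t x) (h : x ∈ 𝓝(DD E)) : 𝓒₁(x) ≤ 𝓝(DD E) := fun g hg =>
  H.conjH hx h (by rwa [mem_cent1.1 hg, mul_inv_cancel_right])

theorem cenH (hx : In t x) (h : x ∈ 𝓝(DD E)) : x ∈ 𝓒(DD E) := by
  obtain ⟨k, hk, rfl⟩ := H.inH hx h
  exact conj_mem_of_mem_norm (norm_cent le_rfl hk) (cent_symm (H.DW H.tE H.t1) (mem_W (In.self t) rfl))

theorem q1 (hx : x ∈ E) (h1 : x ≠ 1) : mel (qh (DD E)) x ≠ 1 := fun h =>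
  h1 (H.DE ((qel_eq_one_iff (H.EH hx)).1 h) hx)

theorem jt : JT (QT (DD E)) := by
  obtain ⟨c⟩ := H.ch
  have tH := H.EH H.tE
  have hS := quo_normalizer (DD E) ▸ H.SH.quo le_rfl
  have SE : S /ᵍ DD E ≤ E /ᵍ DD E := (quo_le_quo_iff' H.SH.le H.EH).2 (H.SC.trans H.BD)
  have WH : ∀ m, c.ψ m ∈ 𝓝(DD E) := fun m => H.CD H.tE H.t1 (W_le (c.mem m))
  obtain ⟨P, hP⟩ := hS.exists_sylow_top Nat.prime_two
  refine jt_of (t := mel (qh (DD E)) t) (fun N hN => ?_) (ord_two (by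
    rw [← mel_mul _ tH tH, H.sq t H.tE, mel_one]) (H.q1 H.tE H.t1)) P (hP ▸ mel_mem_mim _ (H.hE H.tE))
    (fun x hx => ?_) ⟨(qh (DD E)).comp (c.ψ.codRestrict _ WH), (injective_iff_map_eq_one _).2 fun m hm => ?_,
      fun g hg => ?_, ?_⟩
  · have hn := normal_of_index_eq_two hN
    have k : ∀ e ∈ E, e ≠ 1 → (mel (qh (DD E)) e ∈ N ↔ mel (qh (DD E)) t ∈ N) := fun e he e1 => by
      obtain ⟨n, h1, rfl⟩ := H.tr he e1
      rw [mel_conj _ (ND h1) tH]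
      exact ⟨fun h => by simpa [mul_assoc] using hn.conj_mem _ h (mel (qh (DD E)) n)⁻¹, fun h => hn.conj_mem _ h _⟩
    by_cases h : mel (qh (DD E)) t ∈ N
    · have := CA.Wa.odd_idx hS (K := N) (SE.trans fun x hx => by
        obtain ⟨e, he, rfl⟩ := (mem_mim_of_le H.EH).1 hx
        exact (eq_or_ne e 1).elim (fun h => by rw [h, mel_one]; exact one_mem _) fun e1 => (k e he e1).2 h)
      rw [relIndex_top_right, hN] at this
      exact absurd this (by decide)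
    · refine h ((k _ (mul_mem H.tE c.vE) fun e => c.va ?_).1 ?_)
      · rw [eq_inv_of_mul_eq_one_right e, inv_of_sq (H.sq t H.tE)]
      · rw [mel_mul _ tH (WH _), mul_mem_iff_of_index_two hN, k _ c.vE c.v1]
  · obtain ⟨s, hs, rfl⟩ := (mem_mim_of_le H.SH.le).1 (hP ▸ hx)
    exact mem_cent1.1 (mel_mem_centralizer_singleton _ (H.SH.le hs) tH (H.hc hs))
  · have h1 := (qel_eq_one_iff (WH m)).1 ((mel_of_mem _ _).trans hm)
    have h2 : ∀ n, m * n = n * m := fun n => c.inj (by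
      rw [map_mul, map_mul, mem_cent.1 (H.DW H.tE H.t1 h1) _ (c.mem n)])
    exact (k7 m (h2 _) (h2 _) (h2 _)).resolve_right fun e => H.t1 (H.DE (by rwa [e, c.hz] at h1) H.tE)
  · obtain ⟨⟨g, gH⟩, rfl⟩ := qh_surjective _ g
    have h1 := conj_mem_of_mem_norm' (le_norm_self _ gH) tH
    rw [← mel_of_mem, ← mel_mul _ gH tH, ← mel_mul _ tH gH, eq_comm, qel_eq_iff (mul_mem tH gH) (mul_mem gH tH),
      show (t * g)⁻¹ * (g * t) = g⁻¹ * (t⁻¹ * (g * t * g⁻¹)) * g⁻¹⁻¹ by group] at hg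
    have h2 := conj_mem_of_mem_norm' (inv_mem gH) hg
    rw [show g⁻¹⁻¹ * (g⁻¹ * (t⁻¹ * (g * t * g⁻¹)) * g⁻¹⁻¹) * g⁻¹ = t⁻¹ * (g * t * g⁻¹) by group] at h2
    have h3 := (mul_mem_cancel_left (inv_mem (mem_cent1_self t))).1 
      (cent_le_cent1 (mem_W (In.self t) rfl) (H.DW H.tE H.t1 h2))
    have h4 := mul_mem (inv_mem (mem_W (In.self t) rfl)) (mem_W ((In.self t).conj g) (mem_cent1.1 h3))
    obtain ⟨m, hm⟩ := c.sur h4
    have h5 : ∀ n, m * n = n * m := fun n => c.inj (by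
      rw [map_mul, map_mul, hm, mem_cent.1 (H.DW H.tE H.t1 h2) _ (c.mem n)])
    have h6 : t⁻¹ * (g * t * g⁻¹) = 1 := by
      rcases k7 m (h5 _) (h5 _) (h5 _) with rfl | rfl
      · rw [← hm, map_one]
      · exact absurd (H.DE (by rwa [← hm, c.hz] at h2) H.tE) H.t1
    obtain ⟨w, hw, d, hd, rfl⟩ := (mem_sup_norm (W_le.trans (H.CD H.tE H.t1))).1
      (H.Ca H.tE H.t1 (mem_cent1_of_conj (inv_mul_eq_one.1 h6).symm))
    obtain ⟨m, rfl⟩ := c.sur hw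
    exact ⟨m, (mel_of_mem _ (WH m)).symm.trans (((qel_eq_iff (WH m) gH).2 (by simpa using hd)).trans
      (mel_of_mem _ gH))⟩
  · exact (mel_of_mem (qh (DD E)) (WH z)).symm.trans (by rw [c.hz])

theorem odd (hx : In t x) (h : x ∈ 𝓝(DD E)) (hu : In t u) (h1 : u ∉ 𝓝(DD E)) : Odd (orderOf (x * u)) :=
  Nat.not_even_iff_odd.1 fun he => by
  have x2 := H.in_sq hx
  have u2 := H.in_sq hu
  have k1 := CA.H13Inv.commute_pow_half_left x2 u2 he
  have k2 := CA.H13Inv.orderOf_pow_half he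
  have k3 : In t (x * (x * u) ^ (orderOf (x * u) / 2)) := by
    rcases CA.H13Inv.conj_mul_half x2 u2 he with ⟨-, k, e⟩ | ⟨-, k, e⟩
    exacts [e ▸ hx.conj _, e ▸ hu.conj _]
  have k4 := (mul_mem_cancel_left (mem_W hx rfl)).1 (mem_W k3 (by rw [mul_assoc, k1.eq]))
  exact h1 (H.c1H (H.inW hx k4 (sq_of_ord k2) (ne_one_of_ord k2)) (H.c1H hx h (W_le k4))
    (mem_cent1.2 (CA.H13Inv.commute_pow_half_right x2 u2 he).eq.symm))

theorem twoD (hv : In t v) (h1 : v ∉ 𝓝(DD E)) (hT : IsPi {2} T) (h2 : T ≤ 𝓝(DD E)) (h3 : T ≤ 𝓒₁(v)) :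
    T ≤ DD E := fun y hy => by
  obtain ⟨c⟩ := H.ch
  obtain ⟨g, hg, h4⟩ := H.SH.syl_conj_le Nat.prime_two hT h2
  obtain ⟨m, hm, d, hd, e⟩ := (mem_sup_norm H.EH).1 (H.BD (H.SC (h4 (conj_mem_cj.2 hy))))
  have h5 : g * v * g⁻¹ ∉ 𝓝(DD E) := fun h => h1 (by simpa [mul_assoc] using conj_mem_of_mem_norm' (le_norm_self _ hg) h)
  have h6 : g * v * g⁻¹ ∈ 𝓒₁(m * d) := mem_cent1.2 (by rw [e, conj_mul, conj_mul, mem_cent1.1 (h3 hy)])
  by_cases m1 : m = 1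
  · rw [m1, one_mul] at e
    rw [e] at hd
    simpa [mul_assoc] using conj_mem_of_mem_norm' hg hd
  exfalso
  have k : ∀ f ∈ E, f ≠ 1 → ∃ r ∈ 𝓒₁(m * d), r * f * r⁻¹ = g * v * g⁻¹ := fun f hf f1 =>
    let ⟨i, hi⟩ := CA.H13Inv.exists_conj_of_odd (H.sq f hf) (H.in_sq (hv.conj g))
      (H.odd (H.inE hf f1) (H.EH hf) (hv.conj g) h5)
    ⟨_, zpow_mem (mul_mem (mem_cent1_symm.1 (cent_le_cent1 hf (mul_mem (CA.Gold.cent_of_sq H.sq hm) hd.1))) h6) i, hi⟩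
  have k2 : ∀ f ∈ E, f ≠ 1 → f = m := fun f hf f1 => by
    obtain ⟨r, r1, r2⟩ := k m hm m1
    obtain ⟨s, s1, s2⟩ := k f hf f1
    have e1 : s⁻¹ * r * m * (s⁻¹ * r)⁻¹ = f := by
      rw [show s⁻¹ * r * m * (s⁻¹ * r)⁻¹ = s⁻¹ * (r * m * r⁻¹) * s by group, r2, ← s2]; group
    have e2 := conj_mem_of_mem_norm (H.conjH (H.inE hm m1) (H.EH hm) (e1 ▸ H.EH hf)) hd
    have e3 := mem_cent1.1 (mul_mem (inv_mem s1) r1)
    refine (inv_mul_eq_one.1 (H.DE ?_ (mul_mem (inv_mem hm) hf))).symm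
    convert mul_mem hd (inv_mem e2) using 1
    calc m⁻¹ * f = m⁻¹ * (s⁻¹ * r * (m * d)) * d⁻¹ * (s⁻¹ * r)⁻¹ := by rw [← e1]; group
      _ = _ := by rw [e3]; group
  exact c.va ((k2 _ c.vE c.v1).trans (k2 _ H.tE H.t1).symm)

theorem allH (hv : In t v) : v ∈ 𝓝(DD E) := by_contra fun h1 => by
  have v2 := H.in_sq hv
  have tH := H.EH H.tE
  have hn : zpowers v ≤ 𝓝(𝓝(DD E) ⊓ cj v 𝓝(DD E)) := zp_le.2 (mem_norm_iff_cj.2 (by
    rw [cj_inf, ← cj_mul, v2, cj_one, inf_comm]))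
  obtain ⟨T, hT, h2⟩ := syl_superset Nat.prime_two (pi2_zp v2) (le_sup_left (b := 𝓝(DD E) ⊓ cj v 𝓝(DD E)))
  have h3 := (hT.inf_normal le_sup_right (hT.le.trans (sup_le hn (le_norm_self _)))).quo (N := DD E) inf_le_left
  rw [quo_eq_bot_of_le (H.twoD hv h1 (hT.pi.of_le inf_le_left) (inf_le_right.trans inf_le_left)
    (inf_le_left.trans (H.two hv hT.pi (zp_le.1 h2))))] at h3
  have h4 := 𝓒₁(mel (qh (DD E)) t).card_mul_index
  rw [H.jt.card_c1 (ord_two (by rw [← mel_mul _ tH tH, H.sq t H.tE, mel_one]) (H.q1 H.tE H.t1)),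
    H.jt.config.1, ← relIndex_top_right, ← card_cls] at h4
  refine no77 H.jt h3.isPi_compl_of_eq_bot ((by decide : 77 ∣ 1463).trans ?_)
  rw [← card_inf_mul_relIndex 𝓒₁(mel (qh (DD E)) t), ← card_cls]
  refine Dvd.dvd.mul_left (dvd_of_eq ((Nat.eq_of_mul_eq_mul_left (by norm_num : 0 < 120) h4.symm).trans
    (congrArg Set.ncard (Set.ext fun y => ⟨?_, ?_⟩)))) _
  swap
  · exact fun ⟨k, _, e⟩ => ⟨k, trivial, e⟩
  rintro ⟨k, -, rfl⟩
  obtain ⟨⟨k, hk⟩, rfl⟩ := qh_surjective _ k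
  have x1 := (In.self t).conj k
  have x2 := conj_mem_of_mem_norm (le_norm_self _ hk) tH
  obtain ⟨i, hi⟩ := CA.H13Inv.exists_conj_of_odd (H.in_sq x1) (H.in_sq ((In.self t).conj v))
    (H.odd x1 x2 ((In.self t).conj v) fun h => h1 (H.conjH (In.self t) tH h))
  have s2 := CA.H13Inv.zpow_mul_sq (H.in_sq x1) (H.in_sq ((In.self t).conj v)) i
  generalize (k * t * k⁻¹ * (v * t * v⁻¹)) ^ i = r at hi s2
  have e1 : (r * (k * t * k⁻¹))⁻¹ * v * t * ((r * (k * t * k⁻¹))⁻¹ * v)⁻¹ = k * t * k⁻¹ := by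
    calc _ = (r * (k * t * k⁻¹))⁻¹ * (v * t * v⁻¹) * (r * (k * t * k⁻¹)) := by group
      _ = _ := by rw [← hi]; group
  have d1 := H.conjH (In.self t) tH (e1 ▸ x2)
  refine ⟨_, mel_mem_mim _ ⟨d1, mem_cj.2 ?_⟩, by rw [← mel_conj _ d1 tH, e1, mel_conj _ hk tH, mel_of_mem _ hk]⟩
  rw [mul_assoc, mul_assoc, v2, mul_one, inv_of_sq s2]
  simpa only [mul_inv_rev _ v, inv_inv] using inv_mem d1

theorem iso : Nonempty (normalClosure {t} ≃* Spor.J1) := by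
  obtain ⟨c⟩ := H.ch
  obtain ⟨e⟩ := H.jt.iso
  have := CA.J1Perm.isJ1.1
  have : IsSimpleGroup (QT (DD E)) := e.isSimpleGroup
  have h1 : normalClosure {t} ≤ 𝓝(DD E) ⊓ 𝓒(DD E) := (closure_le _).2 fun x hx => by
    obtain ⟨_, rfl, h⟩ := Group.mem_conjugatesOfSet_iff.1 hx
    exact ⟨H.allH (isConj_iff.1 h), H.cenH (isConj_iff.1 h) (H.allH (isConj_iff.1 h))⟩
  have h2 := h1.trans inf_le_left
  have tM : t ∈ normalClosure {t} := subset_normalClosure rfl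
  have h3 : normalClosure {t} /ᵍ DD E = ⊤ := (IsSimpleGroup.eq_bot_or_eq_top_of_normal _ (normalizer_eq_top_iff.1
    (top_le_iff.1 (quo_normalizer (DD E) ▸ mim_le_normalizer _ (le_normalizer_of_normal))))).resolve_left fun h =>
      H.t1 (H.DE ((quo_eq_bot_iff h2).1 h tM) H.tE)
  have h4 : W t t ≤ normalClosure {t} := (closure_le _).2 fun x ⟨g, h, _⟩ => h ▸ normalClosure_normal.conj_mem _ tM g
  have h5 : normalClosure {t} ≤ ⁅normalClosure {t}, normalClosure {t}⁆ := normalClosure_le_normal (by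
    obtain ⟨g, hg⟩ := H.inE c.vE c.v1
    simpa [← hg, mul_assoc] using (commutator_normal _ _).conj_mem _ (der_mono h4 c.vV.2) g⁻¹)
  let σ := e.toMonoidHom.comp ((qh (DD E)).comp (inclusion h2))
  have s1 : Function.Surjective σ := e.surjective.comp fun q => by
    obtain ⟨x, hx, rfl⟩ := (mem_mim_of_le h2).1 (h3.ge (mem_top q))
    exact ⟨⟨x, hx⟩, (mel_of_mem (qh (DD E)) (h2 hx)).symm⟩
  obtain ⟨f, hf⟩ := CA.SchurHopf.surj_stem Cfsg.Agent.S2039.result (ψ := σ) ⟨s1, fun x hx =>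
    mem_center_iff.2 fun y => Subtype.ext (mem_cent.1 (h1 y.2).2 _ ((qel_eq_one_iff (h2 x.2)).1
      ((mel_of_mem _ _).trans (e.map_eq_one_iff.1 hx)))).symm, fun x _ => by
    obtain ⟨y, hy, h⟩ := (map_subtype_commutator _).ge (h5 x.2)
    exact Subtype.ext h ▸ hy⟩
  refine ⟨MulEquiv.ofBijective σ ⟨(injective_iff_map_eq_one σ).2 fun x hx => ?_, s1⟩⟩
  obtain ⟨y, hy⟩ := hf ⟨x, hx⟩
  rw [Subsingleton.elim y 1, map_one] at hy
  exact (congrArg Subtype.val hy).symm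

end Hy

end CA.H9L
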